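import Cfsg.Agent.Lib.TT.Prime

/-!
Groups acting on a generalized polygon so that the Fitting subgroup of an edge stabilizer is
transitive on the apartments through the edge: lines and apartments.
-/

set_option autoImplicit false
set_option linter.unusedSectionVars false

namespace Cfsg.Lib.BNU

open MulAction Subgroup Cfsg.Lib.Perm Cfsg.Lib.BG Cfsg.Lib.TT Cfsg.Lib.Transfer

variable {G V : Type*} [Group G] [MulAction G V] {adj : V → V → Prop} {n : ℕ} {x y : ℤ → V}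
  {a b c d v w : V} {g u z : G} {i j k l m : ℤ} {A D : Subgroup G}

/-- Walks without backtracking, infinite in both directions. -/
structure Ln (adj : V → V → Prop) (x : ℤ → V) : Prop where
  adj : ∀ i j, j = i + 1 → adj (x i) (x j)
  ne : ∀ i j, j = i + 2 → x i ≠ x j

variable (G) in
/-- The pointwise stabilizer of a segment. -/
def Fx (x : ℤ → V) (i j : ℤ) : Subgroup G := ⨅ k ∈ Set.Icc i j, stabilizer G (x k)

variable (G) in
/-- The pointwise stabilizer of a line. -/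
def Hx (x : ℤ → V) : Subgroup G := ⨅ k, stabilizer G (x k)

variable (G) in
/-- The kernel of the action on the neighbours. -/
def Qv (adj : V → V → Prop) (v : V) : Subgroup G :=
  stabilizer G v ⊓ ⨅ w ∈ {w | adj v w}, stabilizer G w

variable (G) in
/-- The Fitting subgroup of the stabilizer of an edge. -/
abbrev Ue (a b : V) : Subgroup G := 𝐅(stab2 G a b)

theorem mem_Fx : g ∈ Fx G x i j ↔ ∀ k, i ≤ k → k ≤ j → g • x k = x k := by
  simp [Fx, mem_iInf]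

theorem mem_Hx : g ∈ Hx G x ↔ ∀ k, g • x k = x k := by simp [Hx, mem_iInf]

theorem mem_Qv : g ∈ Qv G adj v ↔ g • v = v ∧ ∀ w, adj v w → g • w = w := by
  simp [Qv, mem_iInf]

theorem Fx_mono (h1 : i ≤ k) (h2 : l ≤ j) : Fx G x i j ≤ Fx G x k l := fun _ h =>
  mem_Fx.2 fun m e1 e2 => mem_Fx.1 h m (h1.trans e1) (e2.trans h2)

theorem Hx_le : Hx G x ≤ Fx G x i j := fun _ h => mem_Fx.2 fun k _ _ => mem_Hx.1 h k

theorem Fx_succ (h : g ∈ Fx G x i j) (e : k = j + 1) (h' : g • x k = x k) : g ∈ Fx G x i k :=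
  mem_Fx.2 fun m e1 e2 => (e2.eq_or_lt).elim (· ▸ h') fun e3 => mem_Fx.1 h m e1 (by omega)

theorem Fx_congr (h : ∀ k, i ≤ k → k ≤ j → y k = x k) : Fx G y i j = Fx G x i j :=
  Subgroup.ext fun _ => by
    rw [mem_Fx, mem_Fx]
    exact forall_congr' fun k => forall₂_congr fun e1 e2 => by rw [h k e1 e2]

theorem Ue_comm (a b : V) : Ue G a b = Ue G b a := by rw [Ue, stab2, inf_comm]

theorem Ue_le : Ue G a b ≤ stab2 G a b := Fitting_le _

theorem Ue_fst (h : u ∈ Ue G a b) : u • a = a := (Ue_le h).1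

theorem Ue_snd (h : u ∈ Ue G a b) : u • b = b := (Ue_le h).2

theorem Ue_conj (h : u ∈ Ue G a b) (e1 : g • a = c) (e2 : g • b = d) : g * u * g⁻¹ ∈ Ue G c d := by
  have : g ⋆ stab2 G a b = stab2 G c d := Subgroup.ext fun t => by
    rw [Transfer.mem_conj]; simp [mul_smul, inv_smul_eq_iff, ← e1, ← e2]
  rw [Ue, ← this, ← conj_Fitting]
  exact conj_mem_conj.2 h

theorem fix_conj (h : u • a = a) (e : g • a = b) : (g * u * g⁻¹) • b = b := by
  rw [mul_smul, mul_smul, ← e, inv_smul_smul, h]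

theorem Ln.shift (h : Ln adj x) (k : ℤ) : Ln adj fun i => x (i + k) :=
  ⟨fun _ _ e => h.adj _ _ (by omega), fun _ _ e => h.ne _ _ (by omega)⟩

theorem Ln.glue (h : Ln adj x) (h' : Ln adj y) (e : x j = y j) (e' : x (j - 1) ≠ y (j + 1)) :
    Ln adj fun i => if i ≤ j then x i else y i := by
  refine ⟨fun i k r => ?_, fun i k r => ?_⟩ <;> split_ifs with h1 h2 h2
  · exact h.adj _ _ r
  · rw [show i = j by omega, e]; exact h'.adj _ _ (by omega)
  · omega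
  · exact h'.adj _ _ r
  · exact h.ne _ _ r
  · obtain rfl | rfl : i = j ∨ i = j - 1 := by omega
    · rw [e]; exact h'.ne _ _ r
    · rwa [show k = j + 1 by omega]
  · omega
  · exact h'.ne _ _ r

variable (G) in
/-- The hypotheses. -/
structure GP (adj : V → V → Prop) (n : ℕ) : Prop where
  symm : ∀ {a b}, adj a b → adj b a
  smul : ∀ (g : G) {a b}, adj a b → adj (g • a) (g • b)
  thick : ∀ a b c, ∃ d, adj a d ∧ d ≠ b ∧ d ≠ c
  fh : n = 3 ∨ n = 4 ∨ n = 6 ∨ n = 8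
  oct : n = 8 → ∀ a b, adj a b → {c | adj a c}.ncard = 9 → {c | adj b c}.ncard ≠ 3
  flag : ∀ {a b c d}, adj a b → adj c d → ∃ g : G, g • a = c ∧ g • b = d ∨ g • a = d ∧ g • b = c
  ext : ∀ {x y}, Ln adj x → Ln adj y → ∀ i : ℤ, 0 ≤ i → i ≤ n → x i = y i → x (i + 1) = y (i + 1) →
    ∃ u ∈ Ue G (x i) (x (i + 1)), ∀ k : ℤ, 0 ≤ k → k ≤ n + 1 → u • x k = y k
  clo : ∀ {x}, Ln adj x → ∃ w, adj (x 0) w ∧ w ≠ x 1 ∧ Fx G x 0 (n + 1) ≤ stabilizer G w
  rig : ∀ {x}, Ln adj x → ∀ g ∈ Fx G x 0 (n + 1), g ∈ Qv G adj (x 0) → g ∈ Qv G adj (x 1) → g = 1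

variable (G) in
/-- Apartments. -/
structure Ap (adj : V → V → Prop) (n : ℕ) (x : ℤ → V) : Prop extends Ln adj x where
  fx : ∀ i, Fx G x i (i + n + 1) ≤ Hx G x

theorem Fx_shift : Fx G (fun i => x (i + k)) i j = Fx G x (i + k) (j + k) := Subgroup.ext fun _ => by
  rw [mem_Fx, mem_Fx]
  exact ⟨fun h m e1 e2 => by simpa using h (m - k) (by omega) (by omega),
    fun h m e1 e2 => h _ (by omega) (by omega)⟩

theorem Fx_rev : Fx G (fun i => x (k - i)) i j = Fx G x (k - j) (k - i) := Subgroup.ext fun _ => by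
  rw [mem_Fx, mem_Fx]
  exact ⟨fun h m e1 e2 => by simpa using h (k - m) (by omega) (by omega),
    fun h m e1 e2 => h _ (by omega) (by omega)⟩

theorem Hx_shift : Hx G (fun i => x (i + k)) = Hx G x := Subgroup.ext fun _ => by
  rw [mem_Hx, mem_Hx]
  exact ⟨fun h m => by simpa using h (m - k), fun h m => h _⟩

theorem Ap.shift (h : Ap G adj n x) (k : ℤ) : Ap G adj n fun i => x (i + k) :=
  ⟨h.toLn.shift k, fun i => by
    rw [Fx_shift, Hx_shift]; exact (Fx_mono le_rfl (by omega)).trans (h.fx (i + k))⟩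

namespace GP
variable (s : GP G adj n)
include s

theorem three : 3 ≤ n := by have := s.fh; omega

theorem rev (h : Ln adj x) (k : ℤ) : Ln adj fun i => x (k - i) :=
  ⟨fun _ _ e => s.symm (h.adj _ _ (by omega)), fun _ _ e => (h.ne _ _ (by omega)).symm⟩

theorem ln_smul (h : Ln adj x) (g : G) : Ln adj fun i => g • x i :=
  ⟨fun _ _ e => s.smul g (h.adj _ _ e), fun _ _ e k => h.ne _ _ e (smul_left_cancel g k)⟩

theorem adj_of (h : adj a b) (e : g • a = a) : adj a (g • b) := e ▸ s.smul g (e.symm ▸ h)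

theorem Qv_conj (h : u ∈ Qv G adj a) (e : g • a = b) : g * u * g⁻¹ ∈ Qv G adj b :=
  mem_Qv.2 ⟨fix_conj (mem_Qv.1 h).1 e, fun w hw => fix_conj ((mem_Qv.1 h).2 (g⁻¹ • w) (by
    simpa [← e] using s.smul g⁻¹ hw)) (smul_inv_smul g w)⟩

theorem Qv_norm : stabilizer G a ≤ 𝐍(Qv G adj a) := le_norm_iff.2 fun _ hg _ hu => s.Qv_conj hu hg

theorem exists_ray (h : adj a b) :
    ∃ r : ℕ → V, r 0 = a ∧ r 1 = b ∧ ∀ k, adj (r k) (r (k + 1)) ∧ r k ≠ r (k + 2) := by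
  choose f h1 h2 _ using s.thick
  let F : V × V → V × V := fun p => (p.2, f p.2 p.1 p.1)
  refine ⟨fun k => (F^[k] (a, b)).1, rfl, rfl, fun k => ⟨?_, ?_⟩⟩
  · cases k with
    | zero => exact h
    | succ k => simp only [Function.iterate_succ_apply']; exact h1 _ _ _
  · simp only [Function.iterate_succ_apply']; exact (h2 _ _ _).symm

theorem exists_ln (h : adj a b) : ∃ x, Ln adj x ∧ x 0 = a ∧ x 1 = b := by
  obtain ⟨r, a1, a2, a3⟩ := s.exists_ray h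
  obtain ⟨r', b1, b2, b3⟩ := s.exists_ray (s.symm h)
  have k1 : ∀ i : ℤ, 0 ≤ i → ∀ c : ℕ, (i + c).toNat = i.toNat + c := fun i _ c => by omega
  have k2 : ∀ i : ℤ, ∀ c : ℕ, i + c ≤ 1 → (1 - i).toNat = (1 - (i + c)).toNat + c := fun i c _ => by
    omega
  refine ⟨fun i => if 0 ≤ i then r i.toNat else r' (1 - i).toNat, ⟨?_, ?_⟩, a1, a2⟩ <;>
    rintro i _ rfl <;> split_ifs with h1 h2 h2
  · exact k1 i h1 1 ▸ (a3 _).1
  · omega
  · obtain rfl : i = -1 := by omega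
    exact a1 ▸ b2 ▸ s.symm (b3 1).1
  · rw [k2 i 1 (by omega)]; exact s.symm (b3 _).1
  · exact k1 i h1 2 ▸ (a3 _).2
  · omega
  · obtain rfl | rfl : i = -1 ∨ i = -2 := by omega
    · exact a2 ▸ b1 ▸ (b3 0).2.symm
    · exact a1 ▸ b2 ▸ (b3 1).2.symm
  · rw [k2 i 2 (by omega)]; exact (b3 _).2.symm

theorem branch (h : Ln adj x) (h1 : adj (x j) w) (h2 : w ≠ x (j - 1)) :
    ∃ y, Ln adj y ∧ (∀ i ≤ j, y i = x i) ∧ y (j + 1) = w := by
  obtain ⟨y, k, e1, e2⟩ := s.exists_ln h1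
  exact ⟨_, h.glue (k.shift (-j)) (by simpa using e1.symm) (by simpa [e2] using h2.symm),
    fun i e => if_pos e, by simpa using e2⟩

theorem branch' (h : Ln adj x) (h1 : adj (x j) w) (h2 : w ≠ x (j + 1)) :
    ∃ y, Ln adj y ∧ (∀ i, j ≤ i → y i = x i) ∧ y (j - 1) = w := by
  obtain ⟨y, k, e1, e2⟩ := s.branch (s.rev h 0) (j := -j) (w := w) (by simpa) (by
    rwa [show 0 - (-j - 1) = j + 1 by omega])
  exact ⟨_, s.rev k 0, fun i e => by simpa using e1 (-i) (by omega), by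
    rwa [show 0 - (j - 1) = -j + 1 by omega]⟩

theorem ext' (h : Ln adj x) (h' : Ln adj y) (h1 : j ≤ i) (h2 : i ≤ j + n) (e1 : x i = y i)
    (e2 : x (i + 1) = y (i + 1)) :
    ∃ u ∈ Ue G (x i) (x (i + 1)), ∀ k, j ≤ k → k ≤ j + n + 1 → u • x k = y k := by
  obtain ⟨u, k1, k2⟩ := s.ext (h.shift j) (h'.shift j) (i - j) (by omega) (by omega) (by simpa)
    (by rwa [show i - j + 1 + j = i + 1 by omega])
  exact ⟨u, by rwa [show i - j + 1 + j = i + 1 by omega, sub_add_cancel] at k1,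
    fun k e1 e2 => by simpa using k2 (k - j) (by omega) (by omega)⟩

theorem ext1 (h : Ln adj x) (h1 : j - n ≤ i) (h2 : i < j) (k1 : adj (x j) w) (k2 : w ≠ x (j - 1)) :
    ∃ u ∈ Ue G (x i) (x (i + 1)) ⊓ Fx G x (j - n) j, u • x (j + 1) = w := by
  obtain ⟨y, k, e1, e2⟩ := s.branch h k1 k2
  obtain ⟨u, k1, k2⟩ := s.ext' h k h1 (by omega) (e1 _ h2.le).symm (e1 _ h2).symm
  exact ⟨u, ⟨k1, mem_Fx.2 fun l r1 r2 => by rw [k2 l r1 (by omega), e1 l r2]⟩,
    by rw [k2 _ (by omega) (by omega), e2]⟩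

theorem ext2 (h : Ln adj x) (h1 : j ≤ i) (h2 : i < j + n) (k1 : adj (x j) w) (k2 : w ≠ x (j + 1)) :
    ∃ u ∈ Ue G (x i) (x (i + 1)) ⊓ Fx G x j (j + n), u • x (j - 1) = w := by
  obtain ⟨y, k, e1, e2⟩ := s.branch' h k1 k2
  obtain ⟨u, k1, k2⟩ := s.ext' h k (j := j - 1) (i := i) (by omega) (by omega) (e1 _ h1).symm
    (e1 _ (by omega)).symm
  exact ⟨u, ⟨k1, mem_Fx.2 fun l r1 r2 => by rw [k2 l (by omega) (by omega), e1 l r1]⟩,
    by rw [k2 _ (by omega) (by omega), e2]⟩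

theorem exists_ln3 (h1 : adj a b) (h2 : adj b c) (h3 : c ≠ a) :
    ∃ x, Ln adj x ∧ x 0 = a ∧ x 1 = b ∧ x 2 = c := by
  obtain ⟨x, h, rfl, rfl⟩ := s.exists_ln h1
  obtain ⟨y, k, e1, e2⟩ := s.branch h h2 h3
  exact ⟨y, k, e1 _ (by omega), e1 _ le_rfl, e2⟩

theorem tr (h1 : adj a b) (h2 : adj a c) (h3 : adj a d) (k1 : c ≠ b) (k2 : d ≠ b) :
    ∃ u ∈ Ue G a b, u • c = d := by
  obtain ⟨x, h, rfl, rfl, rfl⟩ := s.exists_ln3 (s.symm h1) h2 k1
  have := s.three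
  obtain ⟨u, hu, e⟩ := s.ext1 h (i := 0) (j := 1) (by omega) one_pos h3 k2
  exact ⟨u, (Ue_comm _ _).le hu.1, e⟩

theorem tr' (h1 : adj a b) (h2 : adj a c) : ∃ g : G, g • a = a ∧ g • b = c :=
  let ⟨_, k1, k2, k3⟩ := s.thick a b c
  let ⟨u, hu, e⟩ := s.tr k1 h1 h2 k2.symm k3.symm
  ⟨u, Ue_fst hu, e⟩

theorem clo' (h : Ln adj x) (e : j = i + n + 1) :
    ∃ w, adj (x j) w ∧ w ≠ x (j - 1) ∧ Fx G x i j ≤ stabilizer G w := by
  obtain ⟨w, k1, k2, k3⟩ := s.clo (s.rev h j)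
  rw [Fx_rev] at k3
  exact ⟨w, by simpa using k1, k2, (Fx_mono (by omega) (by omega)).trans k3⟩

/-- Opposite vertices. -/
theorem opp (h : Ln adj x) (hg : g ∈ Fx G x 0 n) (k : g ∈ Qv G adj (x n)) : g ∈ Qv G adj (x 0) := by
  obtain ⟨w, k1, k2, k3⟩ := s.clo h
  have := s.three
  refine mem_Qv.2 ⟨mem_Fx.1 hg _ le_rfl (by omega), fun c hc => ?_⟩
  by_cases e : c = x 1
  · exact e ▸ mem_Fx.1 hg _ (by omega) (by omega)
  obtain ⟨u, hu, e1⟩ := s.ext2 h (i := 0) le_rfl (by omega) k1 k2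
  obtain ⟨u', hu', rfl⟩ := s.ext2 h (i := 0) le_rfl (by omega) hc e
  rw [zero_add (n : ℤ)] at hu hu'
  have m := (Fx G x 0 n).mul_mem hu.2 (inv_mem hu'.2)
  have := k3 (Fx_succ (mul_mem (mul_mem m hg) (inv_mem m)) rfl
    ((mem_Qv.1 (s.Qv_conj k (mem_Fx.1 m n (by omega) le_rfl))).2 _ (h.adj _ _ rfl)))
  simpa [mul_smul, ← e1, inv_smul_eq_iff] using this

variable [Finite G] [Finite V]

theorem card_win (h : Ln adj x) (e : j = i + n + 1) :
    Nat.card (Fx G x i j) ≤ Nat.card (Fx G x (i + 1) (j + 1)) := by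
  obtain ⟨w, k1, k2, k3⟩ := s.clo' h e
  have := s.three
  obtain ⟨u, hu, rfl⟩ := s.ext1 h (i := j - 1) (by omega) (by omega) k1 k2
  rw [← card_conj u⁻¹]
  refine card_le_of_le (conj_le_iff.2 fun g hg => Fx_succ (j := j) ?_ rfl
    (fix_conj (k3 hg) (inv_smul_smul _ _)))
  have := Fx_mono (show j - n ≤ i + 1 by omega) le_rfl hu.2
  exact mul_mem (mul_mem (inv_mem this) (Fx_mono (by omega) le_rfl hg)) (inv_mem (inv_mem this))

theorem win_eq (h : Ln adj x) (e : j = i + n + 1) (k : Fx G x i j ≤ stabilizer G (x (j + 1))) :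
    Fx G x i j = Fx G x (i + 1) (j + 1) := by
  refine eq_of_le_of_card_ge (fun g hg => Fx_mono (by omega) le_rfl (Fx_succ hg rfl (k hg))) ?_
  have := s.card_win (s.rev h 0) (i := -(j + 1)) (j := -(i + 1)) (by omega)
  rw [Fx_rev, Fx_rev] at this
  simpa using this

theorem exists_ap (h : Ln adj x) : ∃ y, Ap G adj n y ∧ ∀ i : ℤ, 0 ≤ i → i ≤ n + 1 → y i = x i := by
  have h3 := s.three
  obtain ⟨w, k1, k2, k3⟩ := s.clo' h (i := 0) (j := n + 1) (by omega)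
  obtain ⟨y', h', e1, rfl⟩ := s.branch h k1 k2
  obtain ⟨w, l1, l2, l3⟩ := s.clo' h' (i := 1) (j := n + 1 + 1) (by omega)
  obtain ⟨y, hy, e2, rfl⟩ := s.branch h' l1 l2
  rw [← Fx_congr (y := y) fun k _ r => (e2 k (by omega)).trans (e1 k r), ← e2 _ le_rfl] at k3
  rw [← Fx_congr fun k _ r => e2 k r] at l3
  have w1 := s.win_eq hy (by omega) k3
  have w2 := s.win_eq hy (by omega) l3
  obtain ⟨g1, a1, a2⟩ := s.tr' (s.symm (hy.adj 0 1 rfl)) (hy.adj 1 2 rfl)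
  obtain ⟨g2, b1, b2⟩ := s.tr' (s.symm (hy.adj 1 2 rfl)) (hy.adj 2 3 rfl)
  obtain ⟨u, -, hu⟩ := s.ext (s.ln_smul hy (g2 * g1)) (hy.shift 2) 0 le_rfl (by omega)
    (by simp [mul_smul, a2, b1]) (by simp [mul_smul, a1, b2])
  obtain ⟨g, hg⟩ : ∃ g : G, ∀ k : ℤ, 0 ≤ k → k ≤ n + 1 → g • y k = y (k + 2) :=
    ⟨u * (g2 * g1), fun k r1 r2 => by rw [mul_smul, hu k r1 r2]⟩
  have gn : g ∈ 𝐍(Fx G y 0 (n + 1)) := inv_mem_iff.1 (mem_normalizer_of_conj_le
    (conj_le_iff.2 fun t ht => mem_Fx.2 fun k r1 r2 => fix_conj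
      (mem_Fx.1 (w2 ▸ (show t ∈ Fx G y 1 _ from w1 ▸ ht)) (k + 2) (by omega) (by omega))
      (inv_smul_eq_iff.2 (hg k r1 r2).symm)))
  let σ : ℤ → V := fun i => g ^ (i / 2) • y (i % 2)
  have p : ∀ i j : ℤ, σ (i + j) = g ^ (i / 2) • σ (i % 2 + j) := fun i j => by
    simp only [σ, smul_smul, ← zpow_add]
    congr 2 <;> omega
  have q : ∀ i : ℤ, 0 ≤ i → i ≤ n + 3 → σ i = y i := fun i r1 r2 => by
    induction i using Int.strongRec (m := 2) with
    | lt i r => simp only [σ]; rw [show i / 2 = 0 by omega, show i % 2 = i by omega]; simp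
    | ge i r ih =>
      have := p 2 (i - 2)
      rw [add_sub_cancel, show 2 % 2 + (i - 2) = i - 2 by omega,
        ih (i - 2) (by omega) (by omega) (by omega)] at this
      simpa [this] using hg (i - 2) (by omega) (by omega)
  have p' : ∀ i j : ℤ, 0 ≤ j → j ≤ n + 1 → σ (i + j) = g ^ (i / 2) • y (i % 2 + j) :=
    fun i j r1 r2 => by rw [p, q _ (by omega) (by omega)]
  refine ⟨σ, ⟨⟨?_, ?_⟩, fun i t ht => mem_Hx.2 fun k => ?_⟩, fun i r1 r2 => by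
    rw [q i r1 (by omega), e2 i (by omega), e1 i r2]⟩
  · rintro i _ rfl
    rw [p' i 1 (by omega) (by omega)]
    exact s.smul _ (hy.adj _ _ rfl)
  · rintro i _ rfl
    rw [p' i 2 (by omega) (by omega)]
    exact fun e => hy.ne _ _ rfl (smul_left_cancel _ e)
  have m : (g ^ (i / 2))⁻¹ * t * (g ^ (i / 2))⁻¹⁻¹ ∈ Fx G y (i % 2) (i % 2 + n + 1) :=
    mem_Fx.2 fun l r1 r2 => fix_conj (mem_Fx.1 ht (i + (l - i % 2)) (by omega) (by omega))
      (by rw [p' _ _ (by omega) (by omega)]; simp)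
  have m' : t ∈ Fx G y 0 (n + 1) := by
    refine (mem_normalizer_iff.1 (inv_mem (zpow_mem gn (i / 2))) t).2 ?_
    obtain e | e : i % 2 = 0 ∨ i % 2 = 1 := by omega
    · simpa [e] using m
    · rw [w1]; convert m using 2 <;> omega
  simpa [mul_smul, inv_smul_eq_iff] using mem_Fx.1 (conj_mem_of_norm' (zpow_mem gn (k / 2)) m')
    (k % 2) (by omega) (by omega)

theorem exists_ap' (h : Ln adj x) (j : ℤ) :
    ∃ y, Ap G adj n y ∧ ∀ i : ℤ, j ≤ i → i ≤ j + n + 1 → y i = x i :=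
  let ⟨_, k1, k2⟩ := s.exists_ap (h.shift j)
  ⟨_, k1.shift (-j), fun i r1 r2 => by simpa using k2 (i + -j) (by omega) (by omega)⟩

theorem rig' (h : Ln adj x) (h1 : j ≤ i) (h2 : i ≤ j + n) (hg : g ∈ Fx G x j (j + n + 1))
    (k1 : g ∈ Qv G adj (x i)) (k2 : g ∈ Qv G adj (x (i + 1))) : g = 1 := by
  obtain ⟨y, hy, e⟩ := s.exists_ap' h j
  refine s.rig (hy.shift i).toLn g (Hx_le (Hx_shift.ge (hy.fx j ((Fx_congr e).ge hg)))) ?_ ?_
  · rwa [zero_add, e i h1 (by omega)]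
  · rwa [add_comm, e _ (by omega) (by omega)]

end GP

end Cfsg.Lib.BNU
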