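import Cfsg.Agent.Lib.BNU.Line

/-!
Centralizers of elements moving a neighbour; the Fitting subgroup of an edge stabilizer is a
`p`-group; counting along a line.
-/

set_option autoImplicit false
set_option linter.unusedSectionVars false

namespace Cfsg.Lib.BNU

open MulAction Subgroup Cfsg.Lib.Perm Cfsg.Lib.BG Cfsg.Lib.TT Cfsg.Lib.Transfer

variable {G V : Type*} [Group G] [MulAction G V] {adj : V → V → Prop} {n p : ℕ} {x y : ℤ → V}
  {a b c d v w : V} {g u z : G} {i j k l m : ℤ} {A D : Subgroup G} {π : Set ℕ}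

variable (G) in
/-- The pointwise stabilizer of a ball. -/
def Kb (adj : V → V → Prop) (v : V) (m : ℤ) : Subgroup G :=
  ⨅ y ∈ {y | Ln adj y ∧ y 0 = v}, Fx G y 0 m

theorem mem_Kb : g ∈ Kb G adj v m ↔ ∀ y, Ln adj y → y 0 = v → g ∈ Fx G y 0 m := by
  simp [Kb, mem_iInf]

/-- The neighbours of `a` other than `b`. -/
def Nb (adj : V → V → Prop) (a b : V) : Set V := {c | adj a c ∧ c ≠ b}

/-- The number of neighbours. -/
noncomputable abbrev vl (adj : V → V → Prop) (a : V) : ℕ := {c | adj a c}.ncard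

/-- The length of an orbit. -/
noncomputable def orb (A : Subgroup G) (v : V) : ℕ := {w | ∃ g ∈ A, g • v = w}.ncard

variable [Finite G] [Finite V]

theorem ncard_Nb (h : adj a b) : (Nb adj a b).ncard + 1 = vl adj a :=
  Set.ncard_diff_singleton_add_one (s := {c | adj a c}) h

theorem orb_card (A : Subgroup G) (v : V) :
    Nat.card A = Nat.card ↥(A ⊓ stabilizer G v) * orb A v :=
  (tr_orbit A v).card ⟨1, one_mem _, one_smul ..⟩

theorem orb_le {S : Set V} (h : ∀ g ∈ A, g • v ∈ S) : orb A v ≤ S.ncard :=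
  Set.ncard_le_ncard fun _ ⟨g, hg, e⟩ => e ▸ h g hg

theorem le_orb {S : Set V} (h : ∀ w ∈ S, ∃ g ∈ A, g • v = w) : S.ncard ≤ orb A v :=
  Set.ncard_le_ncard h

theorem one_le_orb : 1 ≤ orb A v :=
  (Set.ncard_singleton v).ge.trans (le_orb fun _ e => ⟨1, one_mem _, e ▸ one_smul ..⟩)

theorem card_prod (h : D ≤ Fx G x i j) (e : i ≤ j) (r : ℕ) :
    Nat.card D = (∏ k ∈ Finset.range r, orb (D ⊓ Fx G x i (j + k)) (x (j + k + 1))) *
      Nat.card ↥(D ⊓ Fx G x i (j + r)) := by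
  induction r with
  | zero => simp [inf_eq_left.2 h]
  | succ r ih =>
    have : D ⊓ Fx G x i (j + r) ⊓ stabilizer G (x (j + r + 1)) = D ⊓ Fx G x i (j + (r + 1 : ℕ)) := by
      rw [Nat.cast_succ, ← add_assoc]
      exact le_antisymm (fun g hg => ⟨hg.1.1, Fx_succ hg.1.2 rfl hg.2⟩) fun g hg =>
        ⟨⟨hg.1, Fx_mono le_rfl (by omega) hg.2⟩, mem_Fx.1 hg.2 _ (by omega) le_rfl⟩
    rw [ih, Finset.prod_range_succ, orb_card _ (x (j + r + 1)), mul_assoc, mul_comm (orb _ _), this]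

theorem card_le_prod (h : D ≤ Fx G x i j) (e : i ≤ j) (r : ℕ) (c : ℕ → ℕ)
    (hc : ∀ k < r, orb (D ⊓ Fx G x i (j + k)) (x (j + k + 1)) ≤ c k) :
    Nat.card D ≤ (∏ k ∈ Finset.range r, c k) * Nat.card ↥(D ⊓ Fx G x i (j + r)) :=
  (card_prod h e r).trans_le (Nat.mul_le_mul_right _
    (Finset.prod_le_prod' fun k hk => hc k (Finset.mem_range.1 hk)))

theorem prod_le_card (h : D ≤ Fx G x i j) (e : i ≤ j) (r : ℕ) (c : ℕ → ℕ)
    (hc : ∀ k < r, c k ≤ orb (D ⊓ Fx G x i (j + k)) (x (j + k + 1))) :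
    (∏ k ∈ Finset.range r, c k) * Nat.card ↥(D ⊓ Fx G x i (j + r)) ≤ Nat.card D :=
  (Nat.mul_le_mul_right _ (Finset.prod_le_prod' fun k hk => hc k (Finset.mem_range.1 hk))).trans_eq
    (card_prod h e r).symm

namespace GP
variable (s : GP G adj n)
include s

theorem mirror (h : Ln adj y) (h0 : g • y j = y j) (h1 : g • y (j + 1) ≠ y (j + 1)) :
    ∃ x, Ln adj x ∧ (∀ i, j ≤ i → x i = y i) ∧ ∀ m, Fx G y j m ⊓ 𝐂[g] ≤ Fx G x (2 * j - m) m := by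
  refine ⟨_, (s.ln_smul (s.rev h (2 * j)) g).glue h (j := j) (by rwa [two_mul, add_sub_cancel_right])
    (by rwa [show 2 * j - (j - 1) = j + 1 by omega]), fun i e => ?_, fun m t ht =>
      mem_Fx.2 fun k r1 r2 => ?_⟩ <;> split_ifs with r
  · rwa [show i = j by omega, two_mul, add_sub_cancel_right]
  · rfl
  · rw [← mul_smul, mem_cent1.1 ht.2, mul_smul, mem_Fx.1 ht.1 _ (by omega) (by omega)]
  · exact mem_Fx.1 ht.1 _ (by omega) r2

theorem lemZ (h : Ln adj y) (h0 : g • y j = y j) (h1 : g • y (j + 1) ≠ y (j + 1))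
    (hm : n + 1 ≤ 2 * (m - j)) : ∃ w ∈ Nb adj (y m) (y (m - 1)), Fx G y j m ⊓ 𝐂[g] ≤ stabilizer G w := by
  obtain ⟨x, hx, e, k⟩ := s.mirror h h0 h1
  obtain ⟨w, k1, k2, k3⟩ := s.clo' hx (i := m - n - 1) (j := m) (by omega)
  rw [e _ (by omega)] at k1 k2
  exact ⟨w, ⟨k1, k2⟩, (k m).trans ((Fx_mono (by omega) le_rfl).trans k3)⟩

theorem lemZ' (h : Ln adj y) (h0 : g • y 0 = y 0) (h1 : g • y 1 ≠ y 1) (hm : n + 1 ≤ 2 * m)
    (k1 : z ∈ Fx G y 0 m ⊓ 𝐂[g]) (k2 : z ∈ Qv G adj (y 0)) (k3 : z ∈ Qv G adj (y 1)) : z = 1 := by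
  obtain ⟨x, hx, e, k⟩ := s.mirror h h0 h1
  have := s.three
  exact s.rig' hx (i := 0) (j := min 0 (m - n - 1) ⊔ -n) (by omega) (by omega)
    (Fx_mono (by omega) (by omega) (k m k1)) (e 0 le_rfl ▸ k2) (e 1 (by omega) ▸ k3)

theorem no_fix (hw : w ∈ Nb adj a b) (h : A ≤ stabilizer G w)
    (k : ∀ d ∈ Nb adj a b, ∃ u ∈ A, u • c = d) : False := by
  obtain ⟨d, k1, k2, k3⟩ := s.thick a b w
  obtain ⟨u, hu, rfl⟩ := k w hw
  obtain ⟨u', hu', rfl⟩ := k d ⟨k1, k2⟩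
  exact k3 (by simpa [mul_smul] using h (mul_mem hu' (inv_mem hu)))

theorem center_fx (h : Ln adj y) (hz : z ∈ 𝐙(Ue G (y 0) (y 1))) (r : ℕ) (hr : 2 * (r + 1) ≤ n + 1) :
    z ∈ Fx G y 0 (r + 1) := by
  induction r with
  | zero => exact Fx_succ (mem_Fx.2 fun k _ _ => by
      rw [show k = 0 by omega]; exact Ue_fst hz.1) rfl (Ue_snd hz.1)
  | succ r ih =>
    have := ih (by omega)
    refine Fx_succ this rfl (by_contra fun e => ?_)
    obtain ⟨w, k1, k2⟩ := s.lemZ h (mem_Fx.1 this (r + 1) (by omega) le_rfl) e (m := n) (by omega)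
    refine s.no_fix k1 (A := Ue G (y 0) (y 1) ⊓ Fx G y 0 n) (c := y (n + 1))
      (fun t ht => k2 ⟨Fx_mono (by omega) le_rfl ht.2, mem_cent1.2 (hz.2 t ht.1)⟩)
      fun d hd => ?_
    simpa using s.ext1 h (i := 0) (by omega) (by omega) hd.1 hd.2

theorem Kb_norm : stabilizer G v ≤ 𝐍(Kb G adj v m) := le_norm_iff.2 fun g hg _ ht =>
  mem_Kb.2 fun y hy e => mem_Fx.2 fun k r1 r2 => fix_conj (mem_Fx.1 (mem_Kb.1 ht _
    (s.ln_smul hy g⁻¹) (by rw [e, inv_smul_eq_iff, hg])) k r1 r2) (smul_inv_smul _ _)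

theorem Kb_le (h : Ln adj x) : Kb G adj (x j) m ≤ Fx G x (j - m) (j + m) := fun t ht =>
  mem_Fx.2 fun k r1 r2 => by
    by_cases e : j ≤ k
    · simpa using mem_Fx.1 (mem_Kb.1 ht _ (h.shift j) (by simp)) (k - j) (by omega) (by omega)
    · simpa using mem_Fx.1 (mem_Kb.1 ht _ (s.rev h j) (by simp)) (j - k) (by omega) (by omega)

theorem Kb_Qv (h : adj a b) (hm : 1 ≤ m) : Kb G adj a m ≤ Qv G adj a := fun _ ht =>
  let ⟨_, k, e, _⟩ := s.exists_ln h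
  mem_Qv.2 ⟨e ▸ mem_Fx.1 (mem_Kb.1 ht _ k e) 0 le_rfl (by omega), fun _ hw =>
    let ⟨_, k, e, e'⟩ := s.exists_ln hw
    e' ▸ mem_Fx.1 (mem_Kb.1 ht _ k e) 1 (by omega) hm⟩

theorem Kb_Qv' (h : adj a b) (hm : 2 ≤ m) : Kb G adj a m ≤ Qv G adj b := fun _ ht =>
  have k := mem_Qv.1 (s.Kb_Qv h (by omega) ht)
  mem_Qv.2 ⟨k.2 b h, fun c hc => (eq_or_ne c a).elim (· ▸ k.1) fun e =>
    let ⟨_, k, e, _, e'⟩ := s.exists_ln3 h hc e
    e' ▸ mem_Fx.1 (mem_Kb.1 ht _ k e) 2 (by omega) hm⟩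

theorem center_Kb (h : adj a b) (hz : z ∈ 𝐙(Ue G a b)) (r : ℕ) (hr : 2 * (r + 1) ≤ n + 1) :
    z ∈ Kb G adj a r := mem_Kb.2 fun y hy e => by
  subst e
  by_cases e : b = y 1
  · exact Fx_mono le_rfl (by omega) (s.center_fx hy (e ▸ hz) r hr)
  obtain ⟨x, hx, e1, rfl⟩ := s.branch' hy h e
  have := s.center_fx (hx.shift (-1)) (z := z) (by
    rw [Ue_comm, ← e1 0 le_rfl] at hz; exact hz) r hr
  rw [Fx_shift] at this
  exact (Fx_congr fun k r _ => e1 k r).le (Fx_mono (by omega) (by omega) this)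

theorem move (h1 : adj b a) (h2 : adj b c) : Ue G a b ⊓ Qv G adj b ≤ Ue G b c :=
  (Fitting_inf_le fun _ ht => mem_inf.2 ⟨(mem_Qv.1 ht).2 a h1, (mem_Qv.1 ht).1⟩).trans
    (Nml.Fitting_le ⟨fun _ ht => ⟨(mem_Qv.1 ht).1, (mem_Qv.1 ht).2 c h2⟩,
      inf_le_left.trans s.Qv_norm⟩)

theorem mem_Nb (h1 : g • a = a) (h2 : g • b = b) (hc : c ∈ Nb adj a b) : g • c ∈ Nb adj a b :=
  ⟨s.adj_of hc.1 h1, fun e => hc.2 (smul_left_cancel g (e.trans h2.symm))⟩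

theorem two_le : 2 ≤ (Nb adj a b).ncard :=
  let ⟨c, k1, k2, _⟩ := s.thick a b b
  let ⟨d, l1, l2, l3⟩ := s.thick a b c
  (Set.one_lt_ncard (Set.toFinite _)).2 ⟨d, ⟨l1, l2⟩, c, ⟨k1, k2⟩, l3⟩

theorem vl_smul (g : G) (a : V) : vl adj (g • a) = vl adj a :=
  (Set.ncard_congr (fun c _ => g • c) (fun _ => s.smul g) (fun _ _ _ _ => smul_left_cancel g)
    fun c hc => ⟨g⁻¹ • c, inv_smul_smul g a ▸ s.smul g⁻¹ hc, smul_inv_smul g c⟩).symm

theorem pi_of_tr (hA : A ≤ stab2 G a b) (h : PiGrp π A)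
    (k : ∀ d ∈ Nb adj a b, ∃ u ∈ A, u • c = d) : PiNat π (Nb adj a b).ncard :=
  let ⟨_, k1, k2, _⟩ := s.thick a b b
  PiNat.of_dvd h (Dvd.intro_left _ ((Tr.of_base (fun _ hg _ => s.mem_Nb (hA hg).1 (hA hg).2) k).card
    ⟨k1, k2⟩).symm)

theorem pi_of_move (h : adj a b) (hz : z ∈ 𝐎(π, Ue G a b)) (k : z ∉ Qv G adj b) :
    PiNat π (Nb adj a b).ncard := by
  have zU := pcore_le _ _ hz
  obtain ⟨c, h1, h2⟩ : ∃ c, adj b c ∧ z • c ≠ c := by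
    by_contra! e
    exact k (mem_Qv.2 ⟨Ue_snd zU, e⟩)
  obtain ⟨y, hy, rfl, rfl, rfl⟩ := s.exists_ln3 h h1 fun e => h2 (e ▸ Ue_fst zU)
  have := s.three
  obtain ⟨w, k1, k2⟩ := s.lemZ hy (j := 1) (Ue_snd zU) h2 (m := n) (by omega)
  set D := Ue G (y 0) (y 1) ⊓ Fx G y 0 n
  have nil := nil_of_le (Fitting_nil _) (inf_le_left : D ≤ _)
  have le : ∀ π, 𝐎(π, D) ≤ 𝐎(π, Ue G (y 0) (y 1)) := fun π =>
    nil_le_pcore (Fitting_nil _) ((pcore_le _ _).trans inf_le_left) (pcore_pi _ _)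
  have k3 : 𝐎(πᶜ, D) ≤ stabilizer G w := fun t ht => k2 ⟨Fx_mono (by omega) le_rfl
    (pcore_le _ _ ht).2, mem_cent1.2 ((nil_pcore_dprod (Fitting_nil _) π).cent hz t (le _ ht))⟩
  have k4 : ∀ d ∈ Nb adj (y n) (y (n - 1)), ∃ u ∈ D, u • y (n + 1) = d := fun d hd => by
    simpa [D] using s.ext1 hy (i := 0) (by omega) (by omega) hd.1 hd.2
  have k5 : 𝐎(πᶜ, D) ≤ Qv G adj (y 0) := fun t ht => by
    have tD := (pcore_le _ _ ht).2
    refine s.opp hy tD (mem_Qv.2 ⟨mem_Fx.1 tD _ (by omega) le_rfl, fun d hd => ?_⟩)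
    by_cases e : d = y (n - 1)
    · exact e ▸ mem_Fx.1 tD _ (by omega) (by omega)
    obtain ⟨u, hu, rfl⟩ := k4 d ⟨hd, e⟩
    obtain ⟨u', hu', rfl⟩ := k4 w k1
    simpa [mul_smul, inv_smul_eq_iff] using k3 (conj_mem_of_norm ((pcore_nml _ _).norm
      (mul_mem hu' (inv_mem hu))) ht)
  refine s.pi_of_tr ((pcore_le _ _).trans Ue_le) (pcore_pi _ _) (c := y (0 - 1)) fun d hd => ?_
  obtain ⟨u, hu, rfl⟩ := s.ext2 hy (i := 0) le_rfl (by omega) hd.1 hd.2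
  have dp := nil_pcore_dprod nil π
  obtain ⟨u1, r1, u2, r2, rfl⟩ := (mem_sup_left_norm (norm_of_cent dp.symm.cent)).1
    (dp.sup.ge (show u ∈ D by simpa [D] using hu))
  exact ⟨u1, le _ r1, by rw [mul_smul, (mem_Qv.1 (k5 r2)).2 _ (s.symm (hy.adj _ _ rfl))]⟩

theorem pi_of_le (h : adj a b) (k : 𝐎(π, Ue G a b) ≤ Qv G adj a) : PiNat πᶜ (Nb adj a b).ncard := by
  obtain ⟨c, k1, k2, -⟩ := s.thick a b b
  refine s.pi_of_tr ((pcore_le _ _).trans Ue_le) (pcore_pi _ _) (c := c) fun d hd => ?_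
  obtain ⟨u, hu, rfl⟩ := s.tr h k1 hd.1 k2 hd.2
  have dp := nil_pcore_dprod (Fitting_nil (stab2 G a b)) π
  obtain ⟨u1, r1, u2, r2, rfl⟩ := (mem_sup_left_norm (norm_of_cent dp.cent)).1 (dp.symm.sup.ge hu)
  exact ⟨u1, r1, by rw [mul_smul, (mem_Qv.1 (k r2)).2 _ k1]⟩

theorem dvd_swap (hp : p.Prime) (h : adj a b) (k : p ∣ vl adj a - 1) : p ∣ vl adj b - 1 := by
  rw [← ncard_Nb h] at k
  obtain ⟨z, hz, k1⟩ := SetLike.not_le_iff_exists.1 fun e => s.pi_of_le (π := {p}) h e p hp k rfl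
  rw [← ncard_Nb (s.symm h)]
  obtain ⟨q, hq, k2⟩ := Nat.exists_prime_and_dvd (n := (Nb adj b a).ncard)
    (by have := s.two_le (a := b) (b := a); omega)
  exact (show q = p from s.pi_of_move (s.symm h) (Ue_comm (G := G) a b ▸ hz) k1 q hq k2) ▸ k2

theorem pgroup (h : adj a b) : ∃ p, p.Prime ∧ ∀ c d, adj c d → IsPGroup p (Ue G c d) := by
  obtain ⟨p, hp, k⟩ := Nat.exists_prime_and_dvd (n := vl adj a - 1)
    (by have := s.two_le (a := a) (b := b); have := ncard_Nb h; omega)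
  have k1 : ∀ c d, adj c d → p ∣ (Nb adj c d).ncard := fun c d e => by
    obtain ⟨g, ⟨rfl, -⟩ | ⟨-, rfl⟩⟩ := s.flag h e
    · rwa [← s.vl_smul g, ← ncard_Nb e] at k
    · have := s.dvd_swap hp h k
      rwa [← s.vl_smul g, ← ncard_Nb e] at this
  have k2 : ∀ c d, adj c d → 𝐎({p}ᶜ, Ue G c d) ≤ Qv G adj d := fun c d e z hz =>
    by_contra fun r => s.pi_of_move e hz r p hp (k1 c d e) rfl
  have := Fact.mk hp
  refine ⟨p, hp, fun c d e => ?_⟩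
  obtain ⟨y, hy, rfl, rfl⟩ := s.exists_ln e
  have k3 : ∀ i : ℕ, 𝐎({p}ᶜ, Ue G (y 0) (y 1)) ≤ 𝐎({p}ᶜ, Ue G (y i) (y (i + 1))) := fun i => by
    induction i with
    | zero => exact le_rfl
    | succ i ih =>
      exact nil_le_pcore (Fitting_nil _) (ih.trans ((le_inf (pcore_le _ _)
        (k2 _ _ (hy.adj _ _ rfl))).trans (s.move (s.symm (hy.adj _ _ rfl)) (hy.adj _ _ rfl))))
        (pcore_pi _ _)
  have k4 : 𝐎({p}ᶜ, Ue G (y 0) (y 1)) = ⊥ := eq_bot_iff.2 fun z hz => s.rig hy z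
    (mem_Fx.2 fun k r _ => by
      obtain ⟨k, rfl⟩ := Int.eq_ofNat_of_zero_le r
      exact Ue_fst (pcore_le _ _ (k3 k hz))) (k2 _ _ (s.symm e) (Ue_comm (G := G) (y 0) (y 1) ▸ hz)) (k2 _ _ e hz)
  have := (nil_pcore_dprod (Fitting_nil (stab2 G (y 0) (y 1))) {p}).sup
  rw [k4, sup_bot_eq] at this
  exact pgroup_of_le (pcore_pgroup p _) this.ge

theorem buh (h : Ap G adj n x) (hg : g ∈ stab2 G (x i) (x (i + 1))) :
    g ∈ Ue G (x i) (x (i + 1)) ⊔ Hx G x := by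
  obtain ⟨u, hu, k⟩ := s.ext' h.toLn (s.ln_smul h.toLn g) le_rfl (by omega) hg.1.symm hg.2.symm
  rw [← mul_inv_cancel_left u g]
  exact mul_mem_sup hu (h.fx i (mem_Fx.2 fun l r1 r2 => by
    rw [mul_smul, ← k l r1 r2, inv_smul_smul]))

theorem inf_Hx [Fact p.Prime] (h : Ap G adj n x) (hp : ∀ c d, adj c d → IsPGroup p (Ue G c d))
    (i : ℤ) : Ue G (x i) (x (i + 1)) ⊓ Hx G x = 𝐎({p}, Hx G x) := by
  have k : Hx G x ≤ stab2 G (x i) (x (i + 1)) := fun _ ht => ⟨mem_Hx.1 ht _, mem_Hx.1 ht _⟩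
  have k1 := k.trans (Fitting_nml _).norm
  have k2 := hp _ _ (h.adj i _ rfl)
  refine le_antisymm (pcore_max_p (pgroup_of_le k2 inf_le_left) ⟨inf_le_right,
    norm_inf k1 (le_norm _)⟩) (le_inf (le_sup_right.trans (Fitting_max (pgroup_nil
      (pgroup_sup k2 (pcore_pgroup p _) ((pcore_le _ _).trans k1))) ⟨sup_le Ue_le
        ((pcore_le _ _).trans k), fun g hg => sup_le (le_norm_of_le le_sup_left)
          (norm_sup k1 (pcore_nml _ _).norm) (s.buh h hg)⟩)) (pcore_le _ _))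

end GP

end Cfsg.Lib.BNU
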