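import Cfsg.Agent.Lib.CharDeg.FeitHigmanBN
import Cfsg.Agent.Lib.BN.Parabolic

/-!
Finite (B,N)-pairs: longest elements, the rigidity theorem, residues, octagons.
-/

set_option autoImplicit false

namespace Cfsg.Lib.BNU

open Cfsg.Lib.BN Cfsg.Lib.CharDeg.FH Subgroup

variable {G : Type*} [Group G] {P : BNPair G} {s t : P.S} {v w : Weyl P} {c c' d d' e : G ⧸ P.B}
  {g : G}

/-- Elements of maximal length. -/
def MaxL (w : Weyl P) : Prop := ∀ v, len (sW P) v ≤ len (sW P) w

theorem MaxL.inv (h : MaxL w) : MaxL w⁻¹ := fun v => ((invGen P).len_inv w).symm ▸ h v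

theorem maxL_of (h : ∀ s, len (sW P) (sW P s * w) ≤ len (sW P) w) : MaxL w := fun x => by
  have I := invGen P
  suffices ∀ l : List P.S, len (sW P) (wp (sW P) l) = l.length →
      ∃ l', wp (sW P) (l ++ l') = w ∧ (l ++ l').length ≤ len (sW P) w by
    obtain ⟨l, e, rfl⟩ := I.exists_reduced x
    obtain ⟨l', -, e'⟩ := this l e.symm
    rw [List.length_append] at e'; omega
  intro l hl
  induction l with
  | nil => exact let ⟨l, e, e'⟩ := I.exists_reduced w; ⟨l, e', e.le⟩
  | cons s l ih =>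
    obtain ⟨l', e, e'⟩ := ih (I.reduced_tail hl)
    obtain ⟨a, j, b, k1, k2⟩ := exchange_word s _ (e ▸ h s)
    have k3 : w = wp (sW P) (s :: (a ++ b)) := by rw [wp_cons, ← k2, I.cancel_left, e]
    have k4 := congrArg List.length k1
    rcases List.append_eq_append_iff.1 k1 with ⟨a', rfl, rfl⟩ | ⟨a', rfl, r⟩
    · exact ⟨a' ++ b, by simp [k3], by simp at e' ⊢; omega⟩
    rcases List.cons_eq_append_iff.1 r with ⟨rfl, rfl⟩ | ⟨a', rfl, rfl⟩
    · exact ⟨b, by simp [k3], by simp at e' ⊢; omega⟩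
    · rw [← List.append_assoc, wp_append, wp_append _ (a ++ a'), ← mul_assoc, mul_left_inj,
        ← wp_cons] at k2
      have := len_wp_le (sW P) (a ++ a')
      rw [← k2, hl] at this
      simp at this

theorem MaxL.swap (h : MaxL w) (t : P.S) : ∃ s, sW P s * w = w * sW P t := by
  have I := invGen P
  obtain ⟨s, e⟩ : ∃ s, len (sW P) (w * sW P t) < len (sW P) (sW P s * (w * sW P t)) := by
    by_contra! k
    have := len_simple_mul_ne t w⁻¹
    rw [← I.len_inv, mul_inv_rev, inv_inv, I.inv, I.len_inv] at this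
    exact this ((h _).antisymm (maxL_of k w))
  have := eq_of_ascent_descent (t := t) e.le (by rw [I.cancel_right]; exact h _)
  exact ⟨s, by rw [I.cancel_right] at this; rw [← I.cancel_right t (_ * w), mul_assoc _ w, this]⟩

theorem MaxL.swap' (h : MaxL w) (s : P.S) : ∃ t, sW P s * w = w * sW P t :=
  let ⟨t, e⟩ := h.inv.swap s
  ⟨t, by simpa [(invGen P).inv] using congrArg (·⁻¹) e.symm⟩

theorem pos_cases (h : Pos P (sW P s) c d) (h' : Pos P w d e) : Pos P (sW P s * w) c e ∨ Pos P w c e := by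
  have := Cell.simple_mul h h'
  rwa [mul_assoc, mul_inv_cancel_left] at this

theorem pos_cases' (h : Pos P w c d) (h' : Pos P (sW P s) d e) :
    Pos P (w * sW P s) c e ∨ Pos P w c e := by
  have := Cell.mul_simple h h'
  rwa [mul_assoc, mul_inv_cancel_left] at this

theorem len_inv' : len (sW P) (sW P s * w⁻¹) = len (sW P) (w * sW P s) := by
  rw [← (invGen P).len_inv, mul_inv_rev, inv_inv, (invGen P).inv]

theorem pos_trans' (l : len (sW P) w ≤ len (sW P) (w * sW P s)) (h : Pos P w c d)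
    (h' : Pos P (sW P s) d e) : Pos P (w * sW P s) c e := by
  simpa [(invGen P).inv] using (h'.symm.trans_le (by rwa [len_inv', (invGen P).len_inv]) h.inv).inv

theorem pos_uniq (l : len (sW P) w ≤ len (sW P) (sW P s * w)) (h1 : Pos P (sW P s) c d)
    (h2 : Pos P (sW P s) c d') (k1 : Pos P w d e) (k2 : Pos P w d' e) : d = d' := by_contra fun r =>
  sW_ne_one P s (mul_eq_right.1 (((h1.symm.trans h2 r).trans_le l k2).unique k1))

theorem pos_uniq' (l : len (sW P) w ≤ len (sW P) (w * sW P s)) (h1 : Pos P (sW P s) c d)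
    (h2 : Pos P (sW P s) c d') (k1 : Pos P w e d) (k2 : Pos P w e d') : d = d' :=
  pos_uniq (by rwa [len_inv', (invGen P).len_inv]) h1 h2 k1.inv k2.inv

theorem pos_smul (h : Pos P w c d) (h1 : g • c = c') (h2 : g • d = d') : Pos P w c' d' :=
  h1 ▸ h2 ▸ (Pos.smul g).2 h

theorem exists_two (s : P.S) (c : G ⧸ P.B) :
    ∃ d d', Pos P (sW P s) c d ∧ Pos P (sW P s) c d' ∧ d ≠ d' := by
  obtain ⟨g, rfl⟩ := QuotientGroup.mk_surjective c
  obtain ⟨b, hb, hb'⟩ := exists_conj_not_mem P s.2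
  refine ⟨(g * s : G), (g * (b * s) : G), by simpa [pos_mk] using cell_sW s,
    by simpa [pos_mk] using (cell_sW s).mul_left hb, fun h => hb' ?_⟩
  convert P.B.mul_mem (P.sq_mem s s.2) (QuotientGroup.eq.1 h) using 1; group

theorem exists_smul (h : Pos P w c d) (h' : Pos P w c' d') : ∃ g : G, g • c = c' ∧ g • d = d' := by
  obtain ⟨b, hb, b', hb', e⟩ := Cell.eq_of h h'
  refine ⟨c'.out * b * c.out⁻¹, ?_, ?_⟩
  · conv_lhs => rw [← c.out_eq]
    exact (QuotientGroup.eq.2 (by simpa using inv_mem hb)).trans c'.out_eq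
  · conv_lhs => rw [← d.out_eq]
    exact (QuotientGroup.eq.2 (by
      rw [inv_mul_eq_iff_eq_mul.1 e]; simpa [mul_assoc] using hb')).trans d'.out_eq

/-- `g` fixes `c` and the adjacent chambers. -/
def E1 (g : G) (c : G ⧸ P.B) : Prop := g • c = c ∧ ∀ s d, Pos P (sW P s) c d → g • d = d

theorem E1.opp (m : MaxL w) (h : E1 g c) (k : Pos P w c c') (e : g • c' = c') : E1 g c' :=
  ⟨e, fun t d' r => by
    obtain ⟨s, hs⟩ := m.swap t
    obtain ⟨d, k1, k2⟩ : ∃ d, g • d = d ∧ Pos P (w * sW P t) d d' := by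
      rcases pos_cases' k r with k1 | k1
      · exact ⟨c, h.1, k1⟩
      rw [← (invGen P).cancel_left s w] at k1
      exact let ⟨d, k1, k2⟩ := k1.split; ⟨d, h.2 s d k1, hs ▸ k2⟩
    exact pos_uniq' (by rw [(invGen P).cancel_right]; exact m _) (pos_smul r e rfl) r
      (pos_smul k2 k1 rfl) k2⟩

/-- The rigidity theorem. -/
theorem rigid (m : MaxL w) (h : E1 g c) (k : Pos P w c c') (e : g • c' = c') (d : G ⧸ P.B) :
    g • d = d := by
  have step : ∀ s c d, (∃ c', Pos P w c c' ∧ E1 g c ∧ E1 g c') → Pos P (sW P s) c d →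
      ∃ c', Pos P w d c' ∧ E1 g d ∧ E1 g c' := by
    rintro s c d ⟨c', k, h, h'⟩ r
    suffices ∃ c', Pos P w d c' ∧ E1 g c' from
      let ⟨c', k1, k2⟩ := this; ⟨c', k1, k2.opp m.inv k1.inv (h.2 s d r), k2⟩
    rcases pos_cases r.symm k with k1 | k1
    swap; exact ⟨c', k1, h'⟩
    obtain ⟨t, ht⟩ := m.swap' s
    have l : len (sW P) (w * sW P t) ≤ len (sW P) (w * sW P t * sW P t) := by
      rw [(invGen P).cancel_right]; exact m _
    obtain ⟨f, f1, f2⟩ : ∃ f, Pos P (sW P t) c' f ∧ Pos P w c f := by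
      obtain ⟨f, f', f1, f2, f3⟩ := exists_two t c'
      rcases pos_cases' k f1 with r1 | r1
      exacts [⟨f', f2, (pos_cases' k f2).resolve_left fun r2 => f3 (pos_uniq' l f1 f2 r1 r2)⟩, ⟨f, f1, r1⟩]
    exact ⟨f, (invGen P).cancel_right t w ▸ pos_trans' l (ht ▸ k1) f1, h.opp m f2 (h'.2 t f f1)⟩
  obtain ⟨v, hv⟩ : ∃ v, Pos P v c d := exists_cell P _
  have key : ∀ v c, (∃ c', Pos P w c c' ∧ E1 g c ∧ E1 g c') → Pos P v c d → g • d = d := fun v => by
    induction v using (invGen P).induction_left with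
    | one => exact fun c ⟨_, _, h, _⟩ r => pos_one.1 r ▸ h.1
    | mul s v ih => exact fun c h r => let ⟨f, r1, r2⟩ := r.split; ih f (step s c f h r1) r2
  exact key v c ⟨c', k, h, h.opp m k e⟩ hv

variable (P) in
/-- The (B,N)-pair of a parabolic subgroup. -/
def res {J : Set G} (hJ : J ⊆ P.S) : BNPair (P.parabolic J) where
  B := P.B.subgroupOf _
  N := P.N.subgroupOf _
  S := Subtype.val ⁻¹' J
  sup_eq_top := by
    refine map_injective (P.parabolic J).subtype_injective (le_antisymm (map_mono le_top) ?_)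
    rw [← MonoidHom.range_eq_map, range_subtype]
    exact parabolic_le_iff.2 ⟨fun b hb => ⟨⟨b, B_le_parabolic J hb⟩, mem_sup_left hb, rfl⟩,
      fun s hs => ⟨⟨s, mem_parabolic_of_mem hs⟩, mem_sup_right (P.subset (hJ hs)), rfl⟩⟩
  conj_mem n hn t ht := P.conj_mem n hn t ht
  subset _ hs := P.subset (hJ hs)
  sq_mem s hs := P.sq_mem s (hJ hs)
  inj s hs t ht h := Subtype.ext (P.inj s (hJ hs) t (hJ ht) h)
  closure_sup := by
    refine le_antisymm (sup_le ((closure_le _).2 fun _ hs => P.subset (hJ hs)) inf_le_right)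
      fun n hn => ?_
    obtain ⟨l, h1, h2⟩ := exists_word_of_mem_closure (sW_sq P)
      ((mem_parabolic_iff_cell hJ (cell_self hn)).1 n.2)
    obtain ⟨m, hm, e⟩ : wp (fun s : P.S => (s : G)) l ∈
        (closure (Subtype.val ⁻¹' J : Set (P.parabolic J))).map (P.parabolic J).subtype :=
      wp_mem fun s hs => ⟨⟨s, mem_parabolic_of_mem (h1 s hs)⟩, subset_closure (h1 s hs), rfl⟩
    rw [← mul_inv_cancel_left m n]
    refine mul_mem_sup hm ⟨?_, (P.N.subgroupOf _).mul_mem (inv_mem ?_) hn⟩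
    · have := (toW_eq_iff P (wp_val_mem_N l) hn).1 ((toW_wp l).trans h2)
      rwa [← e] at this
    · exact show (P.parabolic J).subtype m ∈ P.N from e ▸ wp_val_mem_N l
  mul_mem_union s hs n hn b hb := by
    refine (P.mul_mem_union s (hJ hs) n hn b hb).imp ?_ ?_ <;>
      simp only [DoubleCoset.mem_doubleCoset] <;> rintro ⟨x, hx, y, hy, e⟩ <;>
      exact ⟨⟨x, B_le_parabolic J hx⟩, hx, ⟨y, B_le_parabolic J hy⟩, hy, Subtype.ext e⟩
  conj_ne s hs e := by
    obtain ⟨b, hb, hb'⟩ := exists_conj_not_mem P (hJ hs)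
    exact hb' (e.le ⟨⟨b, B_le_parabolic J hb⟩, hb, rfl⟩)

theorem no_oct [Fintype (G ⧸ P.B)] {i j : P.S} (hij : ∀ k, k = i ∨ k = j)
    (hm : orderOf (sW P i * sW P j) = 8) (hu : val P i = 8) (hv : val P j = 2) : False := by
  classical
  have e : orderOf (sW P j * sW P i) = 8 := by
    rw [← orderOf_inv, _root_.mul_inv_rev, (invGen P).inv, (invGen P).inv, hm]
  have hji : ∀ k, k = j ∨ k = i := fun k => (hij k).symm
  set w := altM (sW P i) (sW P j) 8 with hw
  have hw' : altM (sW P j) (sW P i) 8 = w := by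
    have := wp_alt_mul_inv (sW_sq P) i j 8
    rw [← hm, pow_orderOf_eq_one, hm, mul_inv_eq_one, wp_alt_eq, wp_alt_eq] at this
    exact this.symm
  have hww : w⁻¹ = w := by
    have := altM_add (sW P i) (sW P j) 8 8
    rw [← two_mul, altM_even, hw', ← hw, ite_self, ← hm, pow_orderOf_eq_one] at this
    exact inv_eq_of_mul_eq_one_right this.symm
  set A := hk P (sW P i)
  set B := hk P (sW P j)
  have a1 : altM A B 8 = hk P w := hk_altM P hij hm.ge
  have a2 : altM B A 8 = hk P w := by rw [← hw']; exact hk_altM P hji e.ge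
  have a3 : (A * B) ^ 8 = hk P w * hk P w := by rw [← altM_even, two_mul, altM_add, a1, a2, ite_self]
  have a4 : (B * A) ^ 8 = hk P w * hk P w := by rw [← altM_even, two_mul, altM_add, a1, a2, ite_self]
  have hp := Complex.isPrimitiveRoot_exp 8 (by omega)
  set ζ := Complex.exp (2 * Real.pi * Complex.I / (8 : ℕ))
  have h4 : ζ ^ 4 = -1 := (hp.pow (by omega) (show 8 = 4 * 2 from rfl)).eq_neg_one_of_two_right
  have h0 := hp.ne_zero (by omega)
  obtain ⟨n, hn⟩ := key (r := 4) (m := 8) (by omega) (hk_sq P i) (hk_sq P j) (by rw [hu, hv]; norm_num)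
    (by norm_num) (fun k h1 h2 => by rw [← altM_even]; exact trace_altM P hij (by omega) (by omega))
    (fun k h2 => by rw [← altM_odd]; exact trace_altM P hij (by omega) (by omega))
    (fun k h2 => by rw [← altM_odd]; exact trace_altM P hji (by omega) (by omega))
    (by
      rw [a3]; nth_rewrite 2 [← hww]
      rw [trace_hk_mul_inv, ← a1, altM_mulVec, hu, hv]
      simp [altM]; norm_num)
    (a3.trans a4.symm) hp.pow_eq_one (hp.pow_ne_one_of_pos_of_lt (by omega) (by omega))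
  have c2 : (ζ + ζ⁻¹) ^ 2 = 2 := by field_simp; linear_combination h4
  rw [hu, hv] at hn
  have N0 : (Fintype.card (G ⧸ P.B) : ℂ) ≠ 0 := Nat.cast_ne_zero.2 Fintype.card_ne_zero
  have n0 : (7 * n : ℤ) ≠ 0 := fun r => N0 (by
    obtain rfl : n = 0 := by omega
    push_cast at hn; linear_combination (-1 / 64) * hn + (Fintype.card (G ⧸ P.B) / 2) * c2)
  obtain ⟨q, hq⟩ := rat_of_mul (c := 2 * (ζ + ζ⁻¹)) (b := 4 * Fintype.card (G ⧸ P.B) - 69 * n) n0 (by
    push_cast at hn ⊢
    linear_combination (1 / 16) * hn + (8 * n - 2 * Fintype.card (G ⧸ P.B)) * c2)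
  have : IsSquare ((8 : ℕ) : ℚ) := ⟨q, by
    exact_mod_cast (show ((8 : ℕ) : ℂ) = q * q by rw [← hq]; push_cast; linear_combination (-4) * c2)⟩
  exact absurd (Rat.isSquare_natCast_iff.1 this) (by decide +kernel)

end Cfsg.Lib.BNU
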